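import Mathlib.Data.ZMod.Basic
import Mathlib.GroupTheory.OrderOfElement
import Mathlib.NumberTheory.Padics.PadicVal.Basic
import Mathlib.Algebra.IsPrimePow
import Mathlib.Tactic

/-!
Numbers `2^n ± 1` and `2^(2m+1) ± 2^(m+1) + 1` which are prime powers.
-/

set_option autoImplicit false

namespace CfsgLib.EPPO

theorem eq_prime_pow_of_dvd {N p : ℕ} (hp : p.Prime) (hN : IsPrimePow N) (hd : p ∣ N) :
    ∃ a, 1 ≤ a ∧ N = p ^ a := by
  obtain ⟨r, a, hr, ha, rfl⟩ := (isPrimePow_nat_iff _).1 hN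
  obtain rfl := (Nat.prime_dvd_prime_iff_eq hp hr).1 (hp.dvd_of_dvd_pow hd)
  exact ⟨a, ha, rfl⟩

theorem three_pow_mod_eight (a : ℕ) : 3 ^ a % 8 = 1 ∨ 3 ^ a % 8 = 3 := by
  induction a with
  | zero => norm_num
  | succ a ih => rw [pow_succ]; omega

theorem le_two_of_three_pow_add_one {n a : ℕ} (h : 2 ^ n = 3 ^ a + 1) : n ≤ 2 := by
  by_contra hn
  have h8 : 2 ^ 3 ∣ 2 ^ n := Nat.pow_dvd_pow 2 (by omega)
  have := three_pow_mod_eight a
  omega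

theorem of_two_pow_add_one {n a : ℕ} (h : 2 ^ n + 1 = 3 ^ a) : n ≤ 1 ∨ n = 3 := by
  rcases Nat.even_or_odd a with ⟨b, rfl⟩ | ⟨b, rfl⟩
  · right
    have h1 : 1 ≤ 3 ^ b := Nat.one_le_pow _ _ (by norm_num)
    have h2 : 2 ^ n = (3 ^ b + 1) * (3 ^ b - 1) := by
      rw [← Nat.sq_sub_sq, one_pow, ← pow_mul, mul_two]
      generalize 2 ^ n = x, 3 ^ (b + b) = y at h ⊢
      omega
    obtain ⟨i, -, hi⟩ := (Nat.dvd_prime_pow Nat.prime_two).1 (Dvd.intro_left _ h2.symm)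
    obtain ⟨j, -, hj⟩ := (Nat.dvd_prime_pow Nat.prime_two).1 (Dvd.intro _ h2.symm)
    have hi1 : i = 1 := by
      rcases i with _ | _ | i
      · rw [pow_zero] at hi
        have : 3 ^ b = 2 := by omega
        rcases b with _ | b
        · simp at this
        · rw [pow_succ] at this; omega
      · rfl
      · exfalso
        have h4 : 4 ∣ 2 ^ (i + 1 + 1) := ⟨2 ^ i, by ring⟩
        have h3 : 2 ^ (i + 1 + 1) < 2 ^ j := by omega
        have h5 : 4 ∣ 2 ^ j := (Nat.pow_dvd_pow 2 (show 2 ≤ j by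
          have := (Nat.pow_lt_pow_iff_right (by norm_num : 1 < 2)).1 h3
          omega) : 2 ^ 2 ∣ 2 ^ j)
        omega
    subst hi1
    rw [show 3 ^ b - 1 = 2 by simpa using hi, show 3 ^ b + 1 = 4 by omega] at h2
    exact Nat.pow_right_injective (le_refl 2) (show 2 ^ n = 2 ^ 3 by simpa using h2)
  · left
    by_contra hn
    have h4 : 4 ∣ 2 ^ n := (Nat.pow_dvd_pow 2 (show 2 ≤ n by omega) : 2 ^ 2 ∣ 2 ^ n)
    have h9 : (3 ^ (2 * b + 1)) % 4 = 3 := by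
      rw [pow_succ, pow_mul, Nat.mul_mod, Nat.pow_mod]; simp
    generalize 2 ^ n = x, 3 ^ (2 * b + 1) = y at h h4 h9
    omega

theorem of_isPrimePow_sub_one {n : ℕ} (hn : Even n) (hn1 : 1 ≤ n) (h : IsPrimePow (2 ^ n - 1)) :
    n = 2 := by
  have h3 : 3 ∣ 2 ^ n - 1 := by
    obtain ⟨j, rfl⟩ := hn
    have := Nat.sub_dvd_pow_sub_pow 4 1 j
    rwa [one_pow, show (4 : ℕ) ^ j = 2 ^ (j + j) by rw [← two_mul, pow_mul]; norm_num] at this
  obtain ⟨a, -, ha⟩ := eq_prime_pow_of_dvd Nat.prime_three h h3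
  have := le_two_of_three_pow_add_one (n := n) (a := a) (by
    have : 1 ≤ 2 ^ n := Nat.one_le_two_pow
    omega)
  obtain ⟨j, rfl⟩ := hn
  omega

theorem of_isPrimePow_add_one {n : ℕ} (hn : Odd n) (h : IsPrimePow (2 ^ n + 1)) : n = 1 ∨ n = 3 := by
  obtain ⟨j, rfl⟩ := hn
  have h3 : 3 ∣ 2 ^ (2 * j + 1) + 1 := by
    have h0 : 2 ^ (2 * j + 1) % 3 = 2 := by
      rw [pow_succ, pow_mul, Nat.mul_mod, Nat.pow_mod]; simp
    omega
  obtain ⟨a, -, ha⟩ := eq_prime_pow_of_dvd Nat.prime_three h h3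
  rcases of_two_pow_add_one ha with h | h <;> omega

theorem five_pow_two_pow (k : ℕ) : ∃ u, Odd u ∧ 5 ^ 2 ^ k = 1 + 2 ^ (k + 2) * u := by
  induction k with
  | zero => exact ⟨1, odd_one, by norm_num⟩
  | succ k ih =>
    obtain ⟨u, hu, he⟩ := ih
    refine ⟨u + 2 ^ (k + 1) * u ^ 2, ?_, ?_⟩
    · exact hu.add_even ((Nat.even_pow.2 ⟨even_two, by omega⟩).mul_right _)
    · rw [pow_succ 2 k, pow_mul, he]; ring

theorem orderOf_five (k : ℕ) : orderOf (5 : ZMod (2 ^ (k + 3))) = 2 ^ (k + 1) := by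
  haveI : Fact (Nat.Prime 2) := ⟨Nat.prime_two⟩
  obtain ⟨u, hu, he⟩ := five_pow_two_pow k
  obtain ⟨v, -, hv⟩ := five_pow_two_pow (k + 1)
  refine orderOf_eq_prime_pow (p := 2) ?_ ?_
  · intro h1
    have h2 : ((5 ^ 2 ^ k : ℕ) : ZMod (2 ^ (k + 3))) = ((1 : ℕ) : ZMod (2 ^ (k + 3))) := by
      push_cast; exact h1
    rw [ZMod.natCast_eq_natCast_iff', he] at h2
    obtain ⟨c, rfl⟩ := hu
    have h3 : 1 + 2 ^ (k + 2) * (2 * c + 1) = 1 + 2 ^ (k + 2) + 2 ^ (k + 3) * c := by ring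
    have h4 : 1 < 2 ^ (k + 3) := Nat.one_lt_pow (by omega) (by norm_num)
    have h5 : 1 + 2 ^ (k + 2) < 2 ^ (k + 3) := by
      have : 2 ≤ 2 ^ (k + 2) := Nat.le_self_pow (by omega) 2
      have : 2 ^ (k + 3) = 2 * 2 ^ (k + 2) := by ring
      omega
    rw [h3, Nat.add_mul_mod_self_left, Nat.mod_eq_of_lt h5, Nat.mod_eq_of_lt h4] at h2
    have : 0 < 2 ^ (k + 2) := Nat.two_pow_pos _
    omega
  · have h2 : ((5 ^ 2 ^ (k + 1) : ℕ) : ZMod (2 ^ (k + 3))) = 1 := by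
      rw [hv, show k + 1 + 2 = k + 3 by omega]
      push_cast
      rw [show ((2 : ZMod (2 ^ (k + 3))) ^ (k + 3)) = 0 by
        have := ZMod.natCast_self (2 ^ (k + 3))
        push_cast at this
        exact this, zero_mul, add_zero]
    push_cast at h2
    exact h2

/-- A power of five is `2^(2m+1) ± 2^(m+1) + 1` only for `m ≤ 2`. -/
theorem le_two_of_five_pow {m a c : ℕ} (h : 5 ^ a = 2 ^ (m + 1) * c + 1)
    (hc : c ≤ 2 ^ m + 1) (hc0 : 1 ≤ c) : m ≤ 2 := by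
  by_contra hm
  obtain ⟨k, rfl⟩ := Nat.exists_eq_add_of_le' (show 2 ≤ m by omega)
  have h1 : (5 : ZMod (2 ^ (k + 3))) ^ a = 1 := by
    have h2 : ((5 ^ a : ℕ) : ZMod (2 ^ (k + 3))) = ((2 ^ (k + 3) * c + 1 : ℕ) : ZMod (2 ^ (k + 3))) := by
      rw [show k + 3 = k + 2 + 1 by omega, h]
    rw [Nat.cast_add, Nat.cast_mul, ZMod.natCast_self, zero_mul, zero_add, Nat.cast_one] at h2
    push_cast at h2
    exact h2
  have hdvd : 2 ^ (k + 1) ∣ a := orderOf_five k ▸ orderOf_dvd_of_pow_eq_one h1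
  have ha : a ≠ 0 := by
    rintro rfl
    rw [pow_zero] at h
    have := Nat.mul_pos (Nat.two_pow_pos (k + 2 + 1)) hc0
    omega
  have hle : 2 ^ (k + 1) ≤ a := Nat.le_of_dvd (by omega) hdvd
  have h4 : 2 * (k + 3) ≤ 2 ^ (k + 2) := by
    have : ∀ j, 1 ≤ j → 2 * (j + 3) ≤ 2 ^ (j + 2) := by
      intro j hj
      induction j, hj using Nat.le_induction with
      | base => norm_num
      | succ j hj ih => rw [pow_succ]; omega
    exact this k (by omega)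
  have h5 : 2 ^ (2 * (k + 3)) ≤ 5 ^ a :=
    calc 2 ^ (2 * (k + 3)) ≤ 2 ^ (2 * 2 ^ (k + 1)) :=
          Nat.pow_le_pow_right (by norm_num) (by rw [← pow_succ']; exact h4)
      _ = 4 ^ 2 ^ (k + 1) := by rw [pow_mul]; norm_num
      _ ≤ 5 ^ 2 ^ (k + 1) := Nat.pow_le_pow_left (by norm_num) _
      _ ≤ 5 ^ a := Nat.pow_le_pow_right (by norm_num) hle
  have h6 : 2 ^ (k + 2 + 1) * c + 1 ≤ 2 ^ (k + 2 + 1) * (2 ^ (k + 2) + 1) + 1 :=
    Nat.add_le_add_right (Nat.mul_le_mul_left _ hc) 1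
  have h7 : 2 ^ (2 * (k + 3)) = 2 ^ (k + 3) * 2 ^ (k + 2) + 2 ^ (k + 3) * 2 ^ (k + 2) := by ring
  have h8 : 2 ^ (k + 3) * (2 ^ (k + 2) + 1) = 2 ^ (k + 3) * 2 ^ (k + 2) + 2 ^ (k + 3) := by ring
  have h9 : 2 ^ (k + 3) * 2 ≤ 2 ^ (k + 3) * 2 ^ (k + 2) :=
    Nat.mul_le_mul_left _ (Nat.le_self_pow (by omega) 2)
  have h10 : 2 ≤ 2 ^ (k + 3) := Nat.le_self_pow (by omega) 2
  rw [show k + 2 + 1 = k + 3 by omega] at h h6
  generalize 2 ^ (k + 3) * (2 ^ (k + 2) + 1) = A, 2 ^ (k + 3) * 2 ^ (k + 2) = B,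
    2 ^ (k + 3) * c = C, 2 ^ (2 * (k + 3)) = D, 2 ^ (k + 3) = E, 5 ^ a = P at *
  omega

/-- The three torus orders of `Sz(q)` with one of the latter two a prime power. -/
theorem suzuki_param {m : ℕ}
    (hp : IsPrimePow (2 ^ (2 * m + 1) + 2 ^ (m + 1) + 1))
    (hq : IsPrimePow (2 ^ (2 * m + 1) - 2 ^ (m + 1) + 1)) : m ≤ 2 := by
  rcases Nat.eq_zero_or_pos m with rfl | hm
  · omega
  haveI : Fact (Nat.Prime 5) := ⟨by norm_num⟩
  have h2 : 2 ≤ 2 ^ m := Nat.le_self_pow (by omega) 2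
  have hB : 2 ^ (2 * m + 1) = 2 ^ (m + 1) * 2 ^ m := by ring
  have hsub : 2 ^ (2 * m + 1) - 2 ^ (m + 1) + 1 = 2 ^ (m + 1) * (2 ^ m - 1) + 1 := by
    rw [hB, Nat.mul_sub, mul_one]
  have hadd : 2 ^ (2 * m + 1) + 2 ^ (m + 1) + 1 = 2 ^ (m + 1) * (2 ^ m + 1) + 1 := by
    rw [hB, mul_add, mul_one]
  have h5 : 5 ∣ (2 ^ (2 * m + 1) + 2 ^ (m + 1) + 1) * (2 ^ (2 * m + 1) - 2 ^ (m + 1) + 1) := by
    have hle : 2 ^ (m + 1) ≤ 2 ^ (2 * m + 1) := Nat.pow_le_pow_right (by norm_num) (by omega)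
    rw [← ZMod.natCast_eq_zero_iff]
    push_cast [hle]
    have h4 : ((2 : ZMod 5) ^ (2 * m + 1)) ^ 2 = -1 := by
      rw [← pow_mul, show (2 * m + 1) * 2 = 4 * m + 2 by ring, pow_add, pow_mul,
        show (2 : ZMod 5) ^ 4 = 1 from rfl, one_pow, one_mul]
      rfl
    have hr : ((2 : ZMod 5) ^ (m + 1)) ^ 2 = 2 * 2 ^ (2 * m + 1) := by ring
    linear_combination h4 - hr
  rcases (Nat.Prime.dvd_mul (by norm_num : Nat.Prime 5)).1 h5 with h | h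
  · obtain ⟨a, -, ha⟩ := eq_prime_pow_of_dvd (by norm_num) hp h
    exact le_two_of_five_pow (a := a) (c := 2 ^ m + 1) (by omega) le_rfl (by omega)
  · obtain ⟨a, -, ha⟩ := eq_prime_pow_of_dvd (by norm_num) hq h
    exact le_two_of_five_pow (a := a) (c := 2 ^ m - 1) (by omega) (by omega) (by omega)

end CfsgLib.EPPO
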